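import Cfsg.Agent.H540.ClassNum
import Cfsg.Agent.H615.AltMult

set_option autoImplicit false
set_option linter.unusedSectionVars false

namespace Cfsg.Agent.H797.Nc

/-!
# Numerical part of NC (helper797, S4766)
-/

section

open Nat

/-! ### Binomial coefficients and Fibonacci numbers -/

theorem fib_mul_le {n w : ℕ} (hw : w ≤ n) : fib (w + 1) * fib (n - w + 1) ≤ fib (n + 1) := by
  have h := Nat.fib_add w (n - w)
  rw [show w + (n - w) + 1 = n + 1 by omega] at h
  omega

theorem fib_three (n : ℕ) : fib (n + 4) ≤ 5 * fib (n + 1) := by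
  have h1 : fib (n + 4) = fib (n + 2) + fib (n + 3) := Nat.fib_add_two
  have h2 : fib (n + 3) = fib (n + 1) + fib (n + 2) := Nat.fib_add_two
  have h3 : fib (n + 2) = fib n + fib (n + 1) := Nat.fib_add_two
  have h4 : fib n ≤ fib (n + 1) := Nat.fib_le_fib_succ
  omega

theorem fib_four (n : ℕ) : fib (n + 5) ≤ 8 * fib (n + 1) := by
  have h0 : fib (n + 5) = fib (n + 3) + fib (n + 4) := Nat.fib_add_two
  have h1 : fib (n + 4) = fib (n + 2) + fib (n + 3) := Nat.fib_add_two
  have h2 : fib (n + 3) = fib (n + 1) + fib (n + 2) := Nat.fib_add_two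
  have h3 : fib (n + 2) = fib n + fib (n + 1) := Nat.fib_add_two
  have h4 : fib n ≤ fib (n + 1) := Nat.fib_le_fib_succ
  omega

theorem choose_three (n k : ℕ) :
    (n + 3).choose (k + 1) * ((k + 1) * (n + 2 - k) * (n + 1 - k)) = n.choose k * ((n + 1) * (n + 2) * (n + 3)) := by
  have h1 := Nat.choose_mul_succ_eq n k
  have h2 := Nat.choose_mul_succ_eq (n + 1) k
  have h3 := Nat.add_one_mul_choose_eq (n + 2) k
  rw [show n + 1 + 1 = n + 2 by rfl] at h2
  rw [show n + 2 + 1 = n + 3 by rfl] at h3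
  calc (n + 3).choose (k + 1) * ((k + 1) * (n + 2 - k) * (n + 1 - k))
      = ((n + 3).choose (k + 1) * (k + 1)) * (n + 2 - k) * (n + 1 - k) := by ring
    _ = (n + 3) * ((n + 2).choose k * (n + 2 - k)) * (n + 1 - k) := by rw [← h3]; ring
    _ = (n + 3) * (n + 2) * ((n + 1).choose k * (n + 1 - k)) := by rw [← h2]; ring
    _ = n.choose k * ((n + 1) * (n + 2) * (n + 3)) := by rw [← h1]; ring

theorem choose_four (n k : ℕ) :
    (n + 4).choose (k + 1) * ((k + 1) * (n + 3 - k) * (n + 2 - k) * (n + 1 - k)) =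
      n.choose k * ((n + 1) * (n + 2) * (n + 3) * (n + 4)) := by
  have h1 := Nat.choose_mul_succ_eq n k
  have h2 := Nat.choose_mul_succ_eq (n + 1) k
  have h3 := Nat.choose_mul_succ_eq (n + 2) k
  have h4 := Nat.add_one_mul_choose_eq (n + 3) k
  rw [show n + 1 + 1 = n + 2 by rfl] at h2
  rw [show n + 2 + 1 = n + 3 by rfl] at h3
  rw [show n + 3 + 1 = n + 4 by rfl] at h4
  calc (n + 4).choose (k + 1) * ((k + 1) * (n + 3 - k) * (n + 2 - k) * (n + 1 - k))
      = ((n + 4).choose (k + 1) * (k + 1)) * (n + 3 - k) * (n + 2 - k) * (n + 1 - k) := by ring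
    _ = (n + 4) * ((n + 3).choose k * (n + 3 - k)) * (n + 2 - k) * (n + 1 - k) := by rw [← h4]; ring
    _ = (n + 4) * (n + 3) * ((n + 2).choose k * (n + 2 - k)) * (n + 1 - k) := by rw [← h3]; ring
    _ = (n + 4) * (n + 3) * (n + 2) * ((n + 1).choose k * (n + 1 - k)) := by rw [← h2]; ring
    _ = n.choose k * ((n + 1) * (n + 2) * (n + 3) * (n + 4)) := by rw [← h1]; ring

theorem step_three {c n k : ℕ} (hk : k ≤ n) (hp : 5 * ((k + 1) * (n + 2 - k) * (n + 1 - k)) ≤ (n + 1) * (n + 2) * (n + 3))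
    (h : c * fib (n + 1) < n.choose k) : c * fib (n + 4) < (n + 3).choose (k + 1) := by
  have h1 := choose_three n k
  have hX : 0 < (k + 1) * (n + 2 - k) * (n + 1 - k) := by
    have h2 : 0 < n + 2 - k := by omega
    have h3 : 0 < n + 1 - k := by omega
    positivity
  have h2 : 5 * n.choose k ≤ (n + 3).choose (k + 1) := by
    refine Nat.le_of_mul_le_mul_right ?_ hX
    rw [h1]
    calc 5 * n.choose k * ((k + 1) * (n + 2 - k) * (n + 1 - k)) = n.choose k * (5 * ((k + 1) * (n + 2 - k) * (n + 1 - k))) := by ring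
      _ ≤ _ := Nat.mul_le_mul_left _ hp
  have h3 := fib_three n
  calc c * fib (n + 4) ≤ c * (5 * fib (n + 1)) := Nat.mul_le_mul_left _ h3
    _ = 5 * (c * fib (n + 1)) := by ring
    _ < 5 * n.choose k := by omega
    _ ≤ _ := h2

theorem step_four {c n k : ℕ} (hk : k ≤ n)
    (hp : 8 * ((k + 1) * (n + 3 - k) * (n + 2 - k) * (n + 1 - k)) ≤ (n + 1) * (n + 2) * (n + 3) * (n + 4))
    (h : c * fib (n + 1) < n.choose k) : c * fib (n + 5) < (n + 4).choose (k + 1) := by
  have h1 := choose_four n k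
  have hX : 0 < (k + 1) * (n + 3 - k) * (n + 2 - k) * (n + 1 - k) := by
    have h2 : 0 < n + 2 - k := by omega
    have h3 : 0 < n + 1 - k := by omega
    have h4 : 0 < n + 3 - k := by omega
    positivity
  have h2 : 8 * n.choose k ≤ (n + 4).choose (k + 1) := by
    refine Nat.le_of_mul_le_mul_right ?_ hX
    rw [h1]
    calc 8 * n.choose k * ((k + 1) * (n + 3 - k) * (n + 2 - k) * (n + 1 - k)) =
        n.choose k * (8 * ((k + 1) * (n + 3 - k) * (n + 2 - k) * (n + 1 - k))) := by ring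
      _ ≤ _ := Nat.mul_le_mul_left _ hp
  have h3 := fib_four n
  calc c * fib (n + 5) ≤ c * (8 * fib (n + 1)) := Nat.mul_le_mul_left _ h3
    _ = 8 * (c * fib (n + 1)) := by ring
    _ < 8 * n.choose k := by omega
    _ ≤ _ := h2

theorem choose_mono {n k l : ℕ} (hkl : k ≤ l) (hl : 2 * l ≤ n) : n.choose k ≤ n.choose l := by
  induction l, hkl using Nat.le_induction with
  | base => exact le_rfl
  | succ m hm ih =>
    exact (ih (by omega)).trans (Nat.choose_le_succ_of_lt_half_left (by omega))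

theorem fa0 (s : ℕ) : 8 * fib (3 * (s + 7) + 1) < (3 * (s + 7)).choose (s + 8) := by
  induction s with
  | zero => decide +kernel
  | succ s ih =>
    have := step_three (n := 3 * (s + 7)) (k := s + 8) (c := 8) (by omega) ?_ ih
    · exact this
    · rw [show 3 * (s + 7) + 2 - (s + 8) = 2 * s + 15 by omega, show 3 * (s + 7) + 1 - (s + 8) = 2 * s + 14 by omega]
      nlinarith [Nat.zero_le (s ^ 3), Nat.zero_le (s ^ 2)]

theorem fa1 (s : ℕ) : 8 * fib (3 * (s + 7) + 1 + 1) < (3 * (s + 7) + 1).choose (s + 8) := by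
  induction s with
  | zero => decide +kernel
  | succ s ih =>
    have := step_three (n := 3 * (s + 7) + 1) (k := s + 8) (c := 8) (by omega) ?_ ih
    · exact this
    · rw [show 3 * (s + 7) + 1 + 2 - (s + 8) = 2 * s + 16 by omega, show 3 * (s + 7) + 1 + 1 - (s + 8) = 2 * s + 15 by omega]
      nlinarith [Nat.zero_le (s ^ 3), Nat.zero_le (s ^ 2)]

theorem fa2 (s : ℕ) : 8 * fib (3 * (s + 7) + 2 + 1) < (3 * (s + 7) + 2).choose (s + 8) := by
  induction s with
  | zero => decide +kernel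
  | succ s ih =>
    have := step_three (n := 3 * (s + 7) + 2) (k := s + 8) (c := 8) (by omega) ?_ ih
    · exact this
    · rw [show 3 * (s + 7) + 2 + 2 - (s + 8) = 2 * s + 17 by omega, show 3 * (s + 7) + 2 + 1 - (s + 8) = 2 * s + 16 by omega]
      nlinarith [Nat.zero_le (s ^ 3), Nat.zero_le (s ^ 2)]

theorem fa3 (s : ℕ) : 2 * fib (3 * (s + 7) + 1) < (3 * (s + 7)).choose (s + 7) := by
  induction s with
  | zero => decide +kernel
  | succ s ih =>
    have := step_three (n := 3 * (s + 7)) (k := s + 7) (c := 2) (by omega) ?_ ih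
    · exact this
    · rw [show 3 * (s + 7) + 2 - (s + 7) = 2 * s + 16 by omega, show 3 * (s + 7) + 1 - (s + 7) = 2 * s + 15 by omega]
      nlinarith [Nat.zero_le (s ^ 3), Nat.zero_le (s ^ 2)]

/-- N2 -/
theorem num_blk {n w : ℕ} (hn : 20 ≤ n) (h1 : n < 3 * w) (h2 : 2 * w ≤ n) :
    8 * (fib (w + 1) * fib (n - w + 1)) < n.choose w := by
  rcases Nat.eq_or_lt_of_le hn with rfl | hn
  · have h3 : 7 ≤ w := by omega
    have h4 : w ≤ 10 := by omega
    interval_cases w <;> decide +kernel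
  · refine lt_of_le_of_lt (Nat.mul_le_mul_left 8 (fib_mul_le (by omega))) ?_
    obtain ⟨s, hs⟩ : ∃ s, n / 3 = s + 7 := ⟨n / 3 - 7, by omega⟩
    refine lt_of_lt_of_le ?_ (choose_mono (show s + 8 ≤ w by omega) h2)
    have h3 : n = 3 * (s + 7) ∨ n = 3 * (s + 7) + 1 ∨ n = 3 * (s + 7) + 2 := by omega
    rcases h3 with h3 | h3 | h3
    · rw [h3]; exact fa0 s
    · rw [h3]; exact fa1 s
    · rw [h3]; exact fa2 s

/-- N1 -/
theorem num_mid {n w : ℕ} (hn : 20 ≤ n) (h1 : n ≤ 3 * w) (h2 : 2 * w ≤ n) :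
    2 * (fib (w + 1) * fib (n - w + 1)) < n.choose w := by
  rcases Nat.eq_or_lt_of_le h1 with h1 | h1
  · obtain ⟨s, rfl⟩ : ∃ s, w = s + 7 := ⟨w - 7, by omega⟩
    subst h1
    refine lt_of_le_of_lt (Nat.mul_le_mul_left 2 (fib_mul_le (by omega))) ?_
    exact fa3 s
  · have := num_blk hn h1 h2
    omega

/-! ### factorials -/

theorem step_d {a d : ℕ} (h : 2 * (d + 1) ≤ a + d + 1) {X : ℕ} (h0 : X * (d ! * 2 ^ (a + d)) < (a + d)!) :
    X * ((d + 1)! * 2 ^ (a + (d + 1))) < (a + (d + 1))! := by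
  rw [← Nat.add_assoc, Nat.factorial_succ (a + d), Nat.factorial_succ d, pow_succ]
  calc X * ((d + 1) * d ! * (2 ^ (a + d) * 2)) = (2 * (d + 1)) * (X * (d ! * 2 ^ (a + d))) := by ring
    _ < (2 * (d + 1)) * (a + d)! := by
        apply Nat.mul_lt_mul_of_pos_left h0 (by omega)
    _ ≤ _ := Nat.mul_le_mul_right _ h

theorem steps_d {a d0 : ℕ} {X : ℕ} (h0 : X * (d0 ! * 2 ^ (a + d0)) < (a + d0)!) :
    ∀ d, d0 ≤ d → 2 * d < a → X * (d ! * 2 ^ (a + d)) < (a + d)! := by
  intro d hd
  induction d, hd using Nat.le_induction with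
  | base => intro _; exact h0
  | succ m hm ih => intro h; exact step_d (by omega) (ih (by omega))

theorem eight_pow_lt (s : ℕ) : 8 ^ (s + 20) < (s + 20)! := by
  induction s with
  | zero => decide +kernel
  | succ s ih =>
    rw [show s + 1 + 20 = (s + 20) + 1 by ring, pow_succ, Nat.factorial_succ]
    calc 8 ^ (s + 20) * 8 < (s + 20)! * 8 := by omega
      _ ≤ (s + 20)! * (s + 20 + 1) := Nat.mul_le_mul_left _ (by omega)
      _ = _ := by ring

/-- N3 -/
theorem num_prim {n a : ℕ} (hn : 20 ≤ n) (h1 : 2 * n < 3 * a) (h2 : a ≤ n) : 4 ^ a * ((n - a)! * 2 ^ n) < n ! := by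
  obtain ⟨d, rfl⟩ : ∃ d, n = a + d := ⟨n - a, by omega⟩
  rw [Nat.add_sub_cancel_left]
  by_cases ha : 20 ≤ a
  · refine steps_d (d0 := 0) ?_ d (Nat.zero_le _) (by omega)
    obtain ⟨s, rfl⟩ : ∃ s, a = s + 20 := ⟨a - 20, by omega⟩
    have := eight_pow_lt s
    rw [Nat.factorial_zero, one_mul, Nat.add_zero]
    calc 4 ^ (s + 20) * 2 ^ (s + 20) = 8 ^ (s + 20) := by rw [← mul_pow, show 4 * 2 = 8 by rfl]
      _ < _ := this
  · have h3 : 14 ≤ a := by omega
    refine steps_d (d0 := 20 - a) ?_ d (by omega) (by omega)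
    have h4 : a ≤ 19 := by omega
    interval_cases a <;> decide +kernel

theorem prod_ge (b c : ℕ) : ∀ k, k ≤ c → (b + 1) ^ k * k ! * (b * c)! ≤ (b * c + k)! := by
  intro k
  induction k with
  | zero => intro _; simp
  | succ k ih =>
    intro hk
    have h1 := ih (by omega)
    rw [← Nat.add_assoc, Nat.factorial_succ (b * c + k), Nat.factorial_succ k, pow_succ]
    have h2 : (b + 1) * (k + 1) ≤ b * c + k + 1 := by
      have : b * (k + 1) ≤ b * c := Nat.mul_le_mul_left _ hk
      calc (b + 1) * (k + 1) = b * (k + 1) + (k + 1) := by ring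
        _ ≤ _ := by omega
    calc (b + 1) ^ k * (b + 1) * ((k + 1) * k !) * (b * c)! = ((b + 1) * (k + 1)) * ((b + 1) ^ k * k ! * (b * c)!) := by ring
      _ ≤ (b * c + k + 1) * (b * c + k)! := Nat.mul_le_mul h2 h1

/-- one more block -/
theorem step_b {b c : ℕ} (hb : 3 ≤ b) (hc : 2 ≤ c) (h : b ! * c ! ^ b * 2 ^ (b * c) < (b * c)!) :
    (b + 1)! * c ! ^ (b + 1) * 2 ^ ((b + 1) * c) < ((b + 1) * c)! := by
  have h1 := prod_ge b c c le_rfl
  have h2 : (b + 1) * 2 ^ c ≤ (b + 1) ^ c := by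
    obtain ⟨e, rfl⟩ : ∃ e, c = e + 2 := ⟨c - 2, by omega⟩
    have h3 : 4 ^ (e + 1) ≤ (b + 1) ^ (e + 1) := Nat.pow_le_pow_left (by omega) _
    have h4 : 2 ^ (e + 2) ≤ 4 ^ (e + 1) := by
      rw [show (4 : ℕ) = 2 ^ 2 by norm_num, ← pow_mul]
      exact Nat.pow_le_pow_right (by norm_num) (by omega)
    rw [show (b + 1) ^ (e + 2) = (b + 1) * (b + 1) ^ (e + 1) by ring]
    exact Nat.mul_le_mul_left _ (h4.trans h3)
  rw [show (b + 1) * c = b * c + c by ring, pow_add 2, Nat.factorial_succ b, pow_succ (c !)]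
  calc (b + 1) * b ! * (c ! ^ b * c !) * (2 ^ (b * c) * 2 ^ c)
      = ((b + 1) * 2 ^ c) * c ! * (b ! * c ! ^ b * 2 ^ (b * c)) := by ring
    _ ≤ (b + 1) ^ c * c ! * (b ! * c ! ^ b * 2 ^ (b * c)) := by
        exact Nat.mul_le_mul_right _ (Nat.mul_le_mul_right _ h2)
    _ < (b + 1) ^ c * c ! * (b * c)! := by
        apply Nat.mul_lt_mul_of_pos_left h
        positivity
    _ ≤ _ := h1

theorem steps_b {b0 c : ℕ} (hb : 3 ≤ b0) (hc : 2 ≤ c) (h : b0 ! * c ! ^ b0 * 2 ^ (b0 * c) < (b0 * c)!) :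
    ∀ b, b0 ≤ b → b ! * c ! ^ b * 2 ^ (b * c) < (b * c)! := by
  intro b hb'
  induction b, hb' using Nat.le_induction with
  | base => exact h
  | succ m hm ih => exact step_b (by omega) hc ih

theorem base_aux {u F P G N : ℕ} (h1 : 8 * u ^ 3 ≤ N) (ih : 6 * F ^ 3 * P < G) (hu : 0 < u) :
    6 * (u * F) ^ 3 * (P * 8) < N * G := by
  calc 6 * (u * F) ^ 3 * (P * 8) = (8 * u ^ 3) * (6 * F ^ 3 * P) := by ring
    _ < (8 * u ^ 3) * G := by
        apply Nat.mul_lt_mul_of_pos_left ih
        positivity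
    _ ≤ N * G := Nat.mul_le_mul_right _ h1

theorem base_three' (s : ℕ) : 6 * (s + 7)! ^ 3 * 2 ^ (3 * (s + 7)) < (3 * (s + 7))! := by
  induction s with
  | zero => decide +kernel
  | succ s ih =>
    have h1 : 8 * (s + 8) ^ 3 ≤ (3 * s + 24) * (3 * s + 23) * (3 * s + 22) := by
      nlinarith [Nat.zero_le (s ^ 3), Nat.zero_le (s ^ 2)]
    have h2 := base_aux h1 ih (by omega)
    have h3 : (s + 1 + 7)! = (s + 8) * (s + 7)! := Nat.factorial_succ (s + 7)
    have h4 : 2 ^ (3 * (s + 1 + 7)) = 2 ^ (3 * (s + 7)) * 8 := by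
      rw [show 3 * (s + 1 + 7) = 3 * (s + 7) + 3 by ring, pow_add, show (2 : ℕ) ^ 3 = 8 from rfl]
    have h5 : (3 * (s + 1 + 7))! = (3 * s + 24) * (3 * s + 23) * (3 * s + 22) * (3 * (s + 7))! := by
      rw [show 3 * (s + 1 + 7) = (3 * s + 23) + 1 by ring, Nat.factorial_succ (3 * s + 23), Nat.factorial_succ (3 * s + 22),
        Nat.factorial_succ (3 * s + 21), show 3 * (s + 7) = 3 * s + 21 by ring]
      ring
    rw [h3, h4, h5]
    exact h2

theorem base_three (s : ℕ) : 3 ! * (s + 7)! ^ 3 * 2 ^ (3 * (s + 7)) < (3 * (s + 7))! :=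
  base_three' s

theorem num_bc {b c : ℕ} (hb : 3 ≤ b) (hc : 2 ≤ c) (hbc : 20 ≤ b * c) : b ! * c ! ^ b * 2 ^ (b * c) < (b * c)! := by
  by_cases h7 : 7 ≤ c
  · obtain ⟨s, rfl⟩ : ∃ s, c = s + 7 := ⟨c - 7, by omega⟩
    exact steps_b le_rfl hc (base_three s) b hb
  · have h6 : c ≤ 6 := by omega
    have h7 := h6
    interval_cases c
    · exact steps_b (b0 := 10) (by norm_num) hc (by decide +kernel) b (by omega)
    · exact steps_b (b0 := 7) (by norm_num) hc (by decide +kernel) b (by omega)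
    · exact steps_b (b0 := 5) (by norm_num) hc (by decide +kernel) b (by omega)
    · exact steps_b (b0 := 4) (by norm_num) hc (by decide +kernel) b (by omega)
    · exact steps_b (b0 := 4) (by norm_num) hc (by decide +kernel) b (by omega)

theorem div_small {a b c : ℕ} (h14 : 14 ≤ a) (h19 : a ≤ 19) (hb : 3 ≤ b) (hc : 2 ≤ c) (hbc : a = b * c) :
    (a = 14 ∧ b = 7 ∧ c = 2) ∨ (a = 15 ∧ b = 3 ∧ c = 5) ∨ (a = 15 ∧ b = 5 ∧ c = 3) ∨ (a = 16 ∧ b = 4 ∧ c = 4) ∨
      (a = 16 ∧ b = 8 ∧ c = 2) ∨ (a = 18 ∧ b = 3 ∧ c = 6) ∨ (a = 18 ∧ b = 6 ∧ c = 3) ∨ (a = 18 ∧ b = 9 ∧ c = 2) := by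
  have h1 : c ≤ 6 := by
    by_contra hcon
    have : 3 * 7 ≤ b * c := Nat.mul_le_mul hb (by omega)
    omega
  interval_cases c <;> omega

/-- N4 -/
theorem num_imp {n a b c : ℕ} (hn : 20 ≤ n) (h1 : 2 * n < 3 * a) (h2 : a ≤ n) (hb : 3 ≤ b) (hc : 2 ≤ c) (hbc : a = b * c) :
    b ! * c ! ^ b * ((n - a)! * 2 ^ n) < n ! := by
  obtain ⟨d, rfl⟩ : ∃ d, n = a + d := ⟨n - a, by omega⟩
  rw [Nat.add_sub_cancel_left]
  by_cases ha : 20 ≤ a
  · refine steps_d (d0 := 0) ?_ d (Nat.zero_le _) (by omega)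
    rw [Nat.factorial_zero, one_mul, Nat.add_zero, hbc]
    exact num_bc hb hc (by omega)
  · refine steps_d (d0 := 20 - a) ?_ d (by omega) (by omega)
    rcases div_small (by omega) (by omega) hb hc hbc with h | h | h | h | h | h | h | h <;> obtain ⟨rfl, rfl, rfl⟩ := h <;>
      decide +kernel

end

/-!
# Bounds for the class number of the symmetric group (helper797, S4766)
-/

section

open Equiv

/-- the multisets of positive numbers at most `k` with sum `n` -/
def Ms (n k : ℕ) : Type := {s : Multiset ℕ // (∀ i ∈ s, 0 < i ∧ i ≤ k) ∧ s.sum = n}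

theorem finite_Ms (n k : ℕ) : Finite (Ms n k) := by
  let f : Ms n k → Nat.Partition n := fun s => ⟨s.1, fun {i} hi => (s.2.1 i hi).1, s.2.2⟩
  refine Finite.of_injective f ?_
  intro s t h
  exact Subtype.ext (congrArg Nat.Partition.parts h)

/-- iterated sum -/
def acc (f : ℕ → ℕ) (m : ℕ) : ℕ → ℕ → ℕ
  | 0, _ => 0
  | t + 1, n => f n + (if m ≤ n then acc f m t (n - m) else 0)

/-- the number of partitions of `n` with parts at most `k` -/
def row : ℕ → ℕ → ℕ
  | 0, n => if n = 0 then 1 else 0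
  | k + 1, n => acc (row k) (k + 1) (n + 1) n

theorem card_Ms_step (n k : ℕ) :
    Nat.card (Ms n (k + 1)) ≤ Nat.card (Ms n k) + (if k + 1 ≤ n then Nat.card (Ms (n - (k + 1)) (k + 1)) else 0) := by
  classical
  have := finite_Ms n k
  have := finite_Ms n (k + 1)
  have := finite_Ms (n - (k + 1)) (k + 1)
  have hlow : ∀ s : Ms n (k + 1), k + 1 ∉ s.1 → (∀ i ∈ s.1, 0 < i ∧ i ≤ k) := by
    intro s hs i hi
    obtain ⟨h1, h2⟩ := s.2.1 i hi
    refine ⟨h1, ?_⟩
    have : i ≠ k + 1 := fun h => hs (h ▸ hi)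
    omega
  have hle : ∀ s : Ms n (k + 1), k + 1 ∈ s.1 → k + 1 ≤ n := by
    intro s hs
    have := Multiset.single_le_sum (s := s.1) (fun x _ => Nat.zero_le x) (k + 1) hs
    rwa [s.2.2] at this
  have hsum : ∀ s : Ms n (k + 1), k + 1 ∈ s.1 → (s.1.erase (k + 1)).sum = n - (k + 1) := by
    intro s hs
    have h1 := Multiset.cons_erase hs
    have h2 := s.2.2
    rw [← h1, Multiset.sum_cons] at h2
    omega
  by_cases hn : k + 1 ≤ n
  · rw [if_pos hn, ← Nat.card_sum]
    let F : Ms n (k + 1) → Ms n k ⊕ Ms (n - (k + 1)) (k + 1) := fun s =>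
      if h : k + 1 ∈ s.1 then Sum.inr ⟨s.1.erase (k + 1), fun i hi => s.2.1 i (Multiset.mem_of_mem_erase hi), hsum s h⟩
      else Sum.inl ⟨s.1, hlow s h, s.2.2⟩
    refine Nat.card_le_card_of_injective F ?_
    intro s t h
    by_cases h1 : k + 1 ∈ s.1 <;> by_cases h2 : k + 1 ∈ t.1
    · simp only [F, dif_pos h1, dif_pos h2] at h
      have h3 : s.1.erase (k + 1) = t.1.erase (k + 1) :=
        congrArg (fun z : Ms (n - (k + 1)) (k + 1) => z.1) (Sum.inr.inj h)
      apply Subtype.ext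
      rw [← Multiset.cons_erase h1, ← Multiset.cons_erase h2, h3]
    · simp only [F, dif_pos h1, dif_neg h2] at h
      cases h
    · simp only [F, dif_neg h1, dif_pos h2] at h
      cases h
    · simp only [F, dif_neg h1, dif_neg h2] at h
      have h3 : s.1 = t.1 := congrArg (fun z : Ms n k => z.1) (Sum.inl.inj h)
      exact Subtype.ext h3
  · rw [if_neg hn, Nat.add_zero]
    have hno : ∀ s : Ms n (k + 1), k + 1 ∉ s.1 := fun s h => hn (hle s h)
    let F : Ms n (k + 1) → Ms n k := fun s => ⟨s.1, hlow s (hno s), s.2.2⟩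
    refine Nat.card_le_card_of_injective F ?_
    intro s t h
    have h3 : s.1 = t.1 := congrArg (fun z : Ms n k => z.1) h
    exact Subtype.ext h3

theorem card_Ms_le (k : ℕ) : ∀ n, Nat.card (Ms n k) ≤ row k n := by
  induction k with
  | zero =>
    intro n
    have h0 : ∀ s : Ms n 0, s.1 = 0 := by
      intro s
      rw [Multiset.eq_zero_iff_forall_notMem]
      intro i hi
      have := s.2.1 i hi
      omega
    have := finite_Ms n 0
    rw [row]
    split_ifs with hn
    · rw [Finite.card_le_one_iff_subsingleton]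
      exact ⟨fun s t => Subtype.ext ((h0 s).trans (h0 t).symm)⟩
    · rw [Nat.le_zero, Finite.card_eq_zero_iff]
      refine ⟨fun s => hn ?_⟩
      have := s.2.2
      rw [h0 s, Multiset.sum_zero] at this
      exact this.symm
  | succ k ih =>
    have key : ∀ t n, n < t → Nat.card (Ms n (k + 1)) ≤ acc (row k) (k + 1) t n := by
      intro t
      induction t with
      | zero => intro n hn; omega
      | succ t iht =>
        intro n hn
        rw [acc]
        refine (card_Ms_step n k).trans (Nat.add_le_add (ih n) ?_)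
        split_ifs with h
        · exact iht _ (by omega)
        · exact le_rfl
    intro n
    exact key (n + 1) n (Nat.lt_succ_self n)

theorem card_partition_le_row (n : ℕ) : Fintype.card (Nat.Partition n) ≤ row n n := by
  have := finite_Ms n n
  refine le_trans ?_ (card_Ms_le n n)
  rw [← Nat.card_eq_fintype_card]
  let F : Nat.Partition n → Ms n n := fun π => ⟨π.parts, fun i hi => ⟨π.parts_pos hi, by
    have := Multiset.single_le_sum (s := π.parts) (fun x _ => Nat.zero_le x) i hi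
    rwa [π.parts_sum] at this⟩, π.parts_sum⟩
  refine Nat.card_le_card_of_injective F ?_
  intro s t h
  exact Nat.Partition.ext (congrArg Subtype.val h)

theorem classes_le (β : Type*) [Fintype β] [DecidableEq β] :
    Nat.card (ConjClasses (Perm β)) ≤ Fintype.card (Nat.Partition (Fintype.card β)) := by
  rw [← Nat.card_eq_fintype_card]
  refine Nat.card_le_card_of_injective (fun c => Quotient.lift (fun σ : Perm β => σ.partition)
    (fun σ τ h => Perm.partition_eq_of_isConj.1 h) c) ?_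
  intro c d
  refine Quotient.inductionOn₂ c d ?_
  intro σ τ h
  exact Quotient.sound (Perm.partition_eq_of_isConj.2 h)

theorem classes_le_fib (β : Type*) [Fintype β] [DecidableEq β] :
    Nat.card (ConjClasses (Perm β)) ≤ Nat.fib (Fintype.card β + 1) :=
  (classes_le β).trans (H615.AltMult.card_partition_le_fib _)

theorem classes_le_row (β : Type*) [Fintype β] [DecidableEq β] :
    Nat.card (ConjClasses (Perm β)) ≤ row (Fintype.card β) (Fintype.card β) :=
  (classes_le β).trans (card_partition_le_row _)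

/-- the number of commuting pairs is monotone -/
theorem pairs_le {T X : Type*} [Group T] [Group X] [Finite X] (f : T →* X) (hf : Function.Injective f) :
    Nat.card T * Nat.card (ConjClasses T) ≤ Nat.card X * Nat.card (ConjClasses X) := by
  have e : T ≃* f.range := MonoidHom.ofInjective hf
  rw [H540.ClassNum.card_conjClasses_congr e, Nat.card_congr e.toEquiv]
  calc Nat.card f.range * Nat.card (ConjClasses f.range)
      ≤ Nat.card f.range * (f.range.index * Nat.card (ConjClasses X)) := Nat.mul_le_mul_left _ (H540.ClassNum.le_index_mul f.range)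
    _ = (Nat.card f.range * f.range.index) * Nat.card (ConjClasses X) := by ring
    _ = _ := by rw [Subgroup.card_mul_index]

end

/-!
# Invariant sets and the number of commuting pairs (helper797, S4766)
-/

section

open Equiv MulAction
open scoped Nat Pointwise

variable {α : Type*} [Fintype α] [DecidableEq α]

/-- restriction to an invariant set -/
def resHom {K : Type*} [Group K] (ι : K →* Perm α) (p : α → Prop) (h : ∀ g x, p (ι g x) ↔ p x) :
    K →* Perm {x // p x} where
  toFun g := (ι g).subtypePerm (h g)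
  map_one' := by
    ext x
    simp
  map_mul' a b := by
    ext x
    simp only [map_mul]
    rfl

theorem resHom_apply {K : Type*} [Group K] (ι : K →* Perm α) (p : α → Prop) (h : ∀ g x, p (ι g x) ↔ p x) (g : K)
    (x : {x // p x}) : ((resHom ι p h g x : {x // p x}) : α) = ι g x := rfl

/-- restriction to an invariant set and to its complement -/
def resTwo {K : Type*} [Group K] (ι : K →* Perm α) (p : α → Prop) (h : ∀ g x, p (ι g x) ↔ p x) :
    K →* Perm {x // p x} × Perm {x // ¬ p x} :=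
  (resHom ι p h).prod (resHom ι (fun x => ¬ p x) fun g x => not_congr (h g x))

theorem resTwo_injective {K : Type*} [Group K] {ι : K →* Perm α} (hι : Function.Injective ι) (p : α → Prop)
    (h : ∀ g x, p (ι g x) ↔ p x) : Function.Injective (resTwo ι p h) := by
  classical
  intro a b hab
  apply hι
  ext x
  have h1 : resHom ι p h a = resHom ι p h b := congrArg Prod.fst hab
  have h2 : resHom ι (fun x => ¬ p x) (fun g x => not_congr (h g x)) a =
    resHom ι (fun x => ¬ p x) (fun g x => not_congr (h g x)) b := congrArg Prod.snd hab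
  by_cases hx : p x
  · have := congrArg (fun σ : Perm {x // p x} => ((σ ⟨x, hx⟩ : {x // p x}) : α)) h1
    exact this
  · have := congrArg (fun σ : Perm {x // ¬ p x} => ((σ ⟨x, hx⟩ : {x // ¬ p x}) : α)) h2
    exact this

theorem card_in (Δ : Finset α) : Fintype.card {x // x ∈ Δ} = Δ.card := Fintype.card_coe Δ

theorem card_out (Δ : Finset α) : Fintype.card {x // x ∉ Δ} = Fintype.card α - Δ.card := by
  rw [Fintype.card_subtype_compl, Fintype.card_coe]

theorem pairs_inv {K : Type*} [Group K] {ι : K →* Perm α} (hι : Function.Injective ι) (Δ : Finset α)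
    (h : ∀ g x, ι g x ∈ Δ ↔ x ∈ Δ) :
    Nat.card K * Nat.card (ConjClasses K) ≤ (Δ.card ! * (Fintype.card α - Δ.card)!) *
      (Nat.card (ConjClasses (Perm {x // x ∈ Δ})) * Nat.card (ConjClasses (Perm {x // x ∉ Δ}))) := by
  have h1 := pairs_le (resTwo ι (fun x => x ∈ Δ) h) (resTwo_injective hι _ h)
  rw [Nat.card_prod, Nat.card_perm, Nat.card_perm, H540.ClassNum.card_conjClasses_prod,
    Nat.card_eq_fintype_card (α := {x // x ∈ Δ}), Nat.card_eq_fintype_card (α := {x // x ∉ Δ}), card_in, card_out] at h1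
  exact h1

/-- an invariant set of size `w` of a group with many commuting pairs -/
theorem choose_le {K : Type*} [Group K] {ι : K →* Perm α} (hι : Function.Injective ι) (Δ : Finset α)
    (h : ∀ g x, ι g x ∈ Δ ↔ x ∈ Δ) {c u v : ℕ} (hA : (Fintype.card α)! ≤ c * (Nat.card K * Nat.card (ConjClasses K)))
    (hu : Nat.card (ConjClasses (Perm {x // x ∈ Δ})) ≤ u) (hv : Nat.card (ConjClasses (Perm {x // x ∉ Δ})) ≤ v) :
    (Fintype.card α).choose Δ.card ≤ c * (u * v) := by
  have hw : Δ.card ≤ Fintype.card α := Finset.card_le_univ Δ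
  have h1 := Nat.choose_mul_factorial_mul_factorial hw
  have h2 := pairs_inv hι Δ h
  have hpos : 0 < Δ.card ! * (Fintype.card α - Δ.card)! := Nat.mul_pos (Nat.factorial_pos _) (Nat.factorial_pos _)
  refine Nat.le_of_mul_le_mul_right ?_ hpos
  calc (Fintype.card α).choose Δ.card * (Δ.card ! * (Fintype.card α - Δ.card)!) = (Fintype.card α)! := by
        rw [← h1]; ring
    _ ≤ c * (Nat.card K * Nat.card (ConjClasses K)) := hA
    _ ≤ c * ((Δ.card ! * (Fintype.card α - Δ.card)!) * (u * v)) :=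
        Nat.mul_le_mul_left _ (h2.trans (Nat.mul_le_mul_left _ (Nat.mul_le_mul hu hv)))
    _ = _ := by ring

theorem choose_le_fib {K : Type*} [Group K] {ι : K →* Perm α} (hι : Function.Injective ι) (Δ : Finset α)
    (h : ∀ g x, ι g x ∈ Δ ↔ x ∈ Δ) {c : ℕ} (hA : (Fintype.card α)! ≤ c * (Nat.card K * Nat.card (ConjClasses K))) :
    (Fintype.card α).choose Δ.card ≤ c * (Nat.fib (Δ.card + 1) * Nat.fib (Fintype.card α - Δ.card + 1)) := by
  refine choose_le hι Δ h hA ?_ ?_
  · have := classes_le_fib {x // x ∈ Δ}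
    rwa [card_in] at this
  · have := classes_le_fib {x // x ∉ Δ}
    rwa [card_out] at this

theorem choose_le_row {K : Type*} [Group K] {ι : K →* Perm α} (hι : Function.Injective ι) (Δ : Finset α)
    (h : ∀ g x, ι g x ∈ Δ ↔ x ∈ Δ) {c : ℕ} (hA : (Fintype.card α)! ≤ c * (Nat.card K * Nat.card (ConjClasses K))) :
    (Fintype.card α).choose Δ.card ≤ c * (row Δ.card Δ.card *
      row (Fintype.card α - Δ.card) (Fintype.card α - Δ.card)) := by
  refine choose_le hι Δ h hA ?_ ?_
  · have := classes_le_row {x // x ∈ Δ}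
    rwa [card_in] at this
  · have := classes_le_row {x // x ∉ Δ}
    rwa [card_out] at this

/-- no invariant set of medium size -/
theorem no_mid {K : Type*} [Group K] {ι : K →* Perm α} (hι : Function.Injective ι) (hn : 20 ≤ Fintype.card α)
    (hA : (Fintype.card α)! ≤ 2 * (Nat.card K * Nat.card (ConjClasses K))) (Δ : Finset α)
    (h : ∀ g x, ι g x ∈ Δ ↔ x ∈ Δ) (h1 : Fintype.card α ≤ 3 * Δ.card) (h2 : 3 * Δ.card ≤ 2 * Fintype.card α) : False := by
  by_cases h3 : 2 * Δ.card ≤ Fintype.card α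
  · have h4 := choose_le_fib hι Δ h hA
    have h5 := num_mid hn h1 h3
    omega
  · have hc : Δᶜ.card = Fintype.card α - Δ.card := Finset.card_compl Δ
    have h4 := choose_le_fib hι Δᶜ (fun g x => by rw [Finset.mem_compl, Finset.mem_compl, h]) hA
    have h5 := num_mid hn (w := Δᶜ.card) (by omega) (by omega)
    omega

theorem no_blk {K : Type*} [Group K] {ι : K →* Perm α} (hι : Function.Injective ι) (hn : 20 ≤ Fintype.card α)
    (hA : (Fintype.card α)! ≤ 8 * (Nat.card K * Nat.card (ConjClasses K))) (Δ : Finset α)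
    (h : ∀ g x, ι g x ∈ Δ ↔ x ∈ Δ) (h1 : Fintype.card α < 3 * Δ.card) (h2 : 2 * Δ.card ≤ Fintype.card α) : False := by
  have h4 := choose_le_fib hι Δ h hA
  have h5 := num_blk hn h1 h2
  omega

/-- a subgroup of index at most two -/
theorem pairs_index_two {K : Type*} [Group K] [Finite K] (K0 : Subgroup K) (hi : K0.index ≤ 2) :
    Nat.card K * Nat.card (ConjClasses K) ≤ 4 * (Nat.card K0 * Nat.card (ConjClasses K0)) := by
  have h1 := K0.card_mul_index
  have h2 := H540.ClassNum.le_index_mul' K0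
  have h3 : Nat.card K ≤ Nat.card K0 * 2 := by
    rw [← h1]
    exact Nat.mul_le_mul_left _ hi
  have h4 : Nat.card (ConjClasses K) ≤ 2 * Nat.card (ConjClasses K0) := h2.trans (Nat.mul_le_mul_right _ hi)
  calc Nat.card K * Nat.card (ConjClasses K) ≤ (Nat.card K0 * 2) * (2 * Nat.card (ConjClasses K0)) := Nat.mul_le_mul h3 h4
    _ = _ := by ring

/-- a large orbit or an invariant set of medium size -/
theorem exists_orbit {K : Type*} [Group K] [MulAction K α] :
    ∃ Δ : Finset α, (∀ (g : K) x, g • x ∈ Δ ↔ x ∈ Δ) ∧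
      ((Fintype.card α ≤ 3 * Δ.card ∧ 3 * Δ.card ≤ 2 * Fintype.card α) ∨
        (2 * Fintype.card α < 3 * Δ.card ∧ ∀ x ∈ Δ, ∀ y ∈ Δ, ∃ g : K, g • x = y)) := by
  classical
  let S : Finset (Finset α) := Finset.univ.filter fun Δ =>
    (∀ (g : K) x, g • x ∈ Δ ↔ x ∈ Δ) ∧ 3 * Δ.card ≤ 2 * Fintype.card α
  have hS : S.Nonempty := ⟨∅, by simp [S]⟩
  obtain ⟨Δ, hΔ, hmax⟩ := S.exists_max_image Finset.card hS
  rw [Finset.mem_filter] at hΔ
  obtain ⟨-, hinv, h2⟩ := hΔ
  by_cases h1 : Fintype.card α ≤ 3 * Δ.card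
  · exact ⟨Δ, hinv, Or.inl ⟨h1, h2⟩⟩
  have hlt : Δ.card < Fintype.card α := by omega
  obtain ⟨x, hx⟩ : ∃ x, x ∉ Δ := by
    by_contra hcon
    push Not at hcon
    rw [Finset.eq_univ_of_forall hcon, Finset.card_univ] at hlt
    exact lt_irrefl _ hlt
  let O : Finset α := Finset.univ.filter fun y => y ∈ orbit K x
  have hO : ∀ (g : K) y, g • y ∈ O ↔ y ∈ O := by
    intro g y
    simp only [O, Finset.mem_filter, Finset.mem_univ, true_and]
    rw [← orbit_eq_iff, ← orbit_eq_iff, orbit_smul]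
  have htr : ∀ y ∈ O, ∀ z ∈ O, ∃ g : K, g • y = z := by
    intro y hy z hz
    simp only [O, Finset.mem_filter, Finset.mem_univ, true_and] at hy hz
    obtain ⟨g, rfl⟩ := hy
    obtain ⟨k, rfl⟩ := hz
    exact ⟨k * g⁻¹, by simp [mul_smul]⟩
  have hdisj : Disjoint Δ O := by
    rw [Finset.disjoint_left]
    intro y hy hyO
    simp only [O, Finset.mem_filter, Finset.mem_univ, true_and] at hyO
    obtain ⟨g, rfl⟩ := hyO
    exact hx ((hinv g x).1 hy)
  have hxO : x ∈ O := by simp [O]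
  have hOpos : 0 < O.card := Finset.card_pos.2 ⟨x, hxO⟩
  have hcard : (Δ ∪ O).card = Δ.card + O.card := Finset.card_union_of_disjoint hdisj
  have h3 : 2 * Fintype.card α < 3 * (Δ ∪ O).card := by
    by_contra hcon
    have hmem : Δ ∪ O ∈ S := by
      rw [Finset.mem_filter]
      refine ⟨Finset.mem_univ _, fun g y => ?_, by omega⟩
      rw [Finset.mem_union, Finset.mem_union, hinv, hO]
    have := hmax _ hmem
    omega
  by_cases h4 : 3 * O.card ≤ 2 * Fintype.card α
  · exact ⟨O, hO, Or.inl ⟨by omega, h4⟩⟩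
  · exact ⟨O, hO, Or.inr ⟨by omega, htr⟩⟩

end

end Cfsg.Agent.H797.Nc
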